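import Cfsg.Agent.H477.HC.Trans

/-!
# The characters `κ` of the stabiliser of a totally singular subspace (S4933, box hc.K, helper618)

`isIrr_sub` : `ρ : G →* GL(V)`, `Lam` invariant, `G → GL(Lam)` surjective, `c` a cuspidal irreducible character of
`GL_k(K)`, `k ≥ 2`: the sum of `c (g | W)` over the `g`-invariant `k`-dimensional subspaces `W ≤ Lam` is irreducible.
`CForm.exists_kappa` : the case `G = stabW F.iso.subtype Lam`.
`CForm.isIrr_mu` : `flagTerm c . W₀` is irreducible on `stabW W₀ ⊓ stabW Lam`.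
-/

set_option autoImplicit false

open scoped ComplexConjugate
open Cfsg

namespace Cfsg.Agent.H618.HT

open Cfsg.Agent.OddOrderCharacters.Clifford Cfsg.Agent.Characters MulAction Module Cfsg.Agent.H53.HC
  Cfsg.Agent.H477.HC

universe u v w

section Lin

variable {K : Type u} [Field K] {V : Type v} [AddCommGroup V] [Module K V]

/-- a functional with given values on `W₀`, trivial on `W'` -/
theorem exists_fun {W₀ W' : Submodule K V} (f : W₀ →ₗ[K] K) (hf : ∀ w : W₀, (w : V) ∈ W' → f w = 0) :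
    ∃ f' : V →ₗ[K] K, (∀ w : W₀, f' w = f w) ∧ ∀ w' ∈ W', f' w' = 0 := by
  let φ : W₀ →ₗ[K] (V ⧸ W') := (W'.mkQ).comp W₀.subtype
  have h1 : (f : Dual K W₀) ∈ (LinearMap.ker φ).dualAnnihilator := by
    rw [Submodule.mem_dualAnnihilator]
    intro w hw
    exact hf w (by simpa [φ] using hw)
  rw [← LinearMap.range_dualMap_eq_dualAnnihilator_ker] at h1
  obtain ⟨h, hh⟩ := h1
  refine ⟨h.comp W'.mkQ, fun w => ?_, fun w' hw' => ?_⟩
  · exact LinearMap.congr_fun hh w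
  · rw [LinearMap.comp_apply, Submodule.mkQ_apply, (Submodule.Quotient.mk_eq_zero W').2 hw', map_zero]

/-- an automorphism of a subspace extends -/
theorem exists_extE (W : Submodule K V) (a : W ≃ₗ[K] W) : ∃ a' : V ≃ₗ[K] V, ∀ w : W, a' w = a w := by
  obtain ⟨C, hC⟩ := W.exists_isCompl
  refine ⟨((Submodule.prodEquivOfIsCompl W C hC).symm.trans (a.prodCongr (LinearEquiv.refl K C))).trans
    (Submodule.prodEquivOfIsCompl W C hC), fun w => ?_⟩
  change (Submodule.prodEquivOfIsCompl W C hC) ((a.prodCongr (LinearEquiv.refl K C))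
    ((Submodule.prodEquivOfIsCompl W C hC).symm w)) = _
  have : (Submodule.prodEquivOfIsCompl W C hC).symm (w : V) = (w, 0) := by
    rw [LinearEquiv.symm_apply_eq]
    simp
  rw [this]
  simp

/-- transport of the inner product -/
theorem inner_equiv {A B : Type*} [Group A] [Group B] [Fintype A] [Fintype B] (e : A ≃* B) (φ ψ : B → ℂ) :
    classInner (fun a => φ (e a)) (fun a => ψ (e a)) = classInner φ ψ := by
  rw [Core.classInner_def, Core.classInner_def, Nat.card_congr e.toEquiv]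
  congr 1
  exact Fintype.sum_equiv e.toEquiv _ _ fun _ => rfl

end Lin

section Irr

variable {K : Type u} [Field K] {V : Type v} [AddCommGroup V] [Module K V] {G : Type w} [Group G]
  (ρ : G →* (V ≃ₗ[K] V))

theorem van [FiniteDimensional K V] [Finite V] {k : ℕ} {c : GL (Fin k) K → ℂ} (hcf : IsClassFunction _ c)
    (hcusp : IsCusp c) {W₀ W' : Submodule K V} (hW₀ : finrank K W₀ = k)
    (hW' : finrank K W' = k) (D : Submodule K V) (hD : D ≤ W₀) (hD0 : D ≠ ⊥) (hD1 : D ≠ W₀)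
    (hgen : ∀ c ∈ D, ∀ f : W₀ →ₗ[K] K, (∀ w : W₀, (w : V) ∈ D → f w = 0) →
      ∃ g : G, (∀ w' ∈ W', ρ g w' = w') ∧ ∀ w : W₀, ρ g w = w + f w • c) :
    ∃ L : Subgroup G, L ≤ stabW ρ W₀ ∧ L ≤ stabW ρ W' ∧
      ∀ [Fintype L], ∑ l : L, flagTerm ρ c l W₀ * conj (flagTerm ρ c l W') = 0 := by
  classical
  have b₀ : Basis (Fin k) K W₀ := finBasisOfFinrankEq K W₀ hW₀
  have b₁ : Basis (Fin k) K W' := finBasisOfFinrankEq K W' hW'
  let D₀ : Submodule K W₀ := D.comap W₀.subtype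
  have hD₀0 : D₀ ≠ ⊥ := by
    intro h
    apply hD0
    rw [Submodule.eq_bot_iff] at h ⊢
    intro x hx
    have := h ⟨x, hD hx⟩ hx
    exact congrArg Subtype.val this
  have hD₀1 : D₀ ≠ ⊤ := by
    intro h
    apply hD1
    apply le_antisymm hD
    intro x hx
    have : (⟨x, hx⟩ : W₀) ∈ D₀ := by rw [h]; trivial
    exact this
  let L : Subgroup G :=
    { carrier := {g | (∀ w' ∈ W', ρ g w' = w') ∧ (∀ w ∈ W₀, ρ g w - w ∈ D) ∧ ∀ d ∈ D, ρ g d = d}
      one_mem' := ⟨fun _ _ => by rw [map_one]; rfl, fun w _ => by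
        rw [map_one]
        change w - w ∈ D
        rw [sub_self]; exact D.zero_mem, fun _ _ => by rw [map_one]; rfl⟩
      mul_mem' := by
        rintro x y ⟨hx1, hx2, hx3⟩ ⟨hy1, hy2, hy3⟩
        refine ⟨fun w' hw' => ?_, fun w hw => ?_, fun d hd => ?_⟩
        · rw [map_mul, LinearEquiv.mul_apply, hy1 w' hw', hx1 w' hw']
        · have h1 : ρ y w ∈ W₀ := by
            have := W₀.add_mem (hD (hy2 w hw)) hw
            rwa [sub_add_cancel] at this
          have : ρ (x * y) w - w = (ρ x (ρ y w) - ρ y w) + (ρ y w - w) := by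
            rw [map_mul, LinearEquiv.mul_apply]; abel
          rw [this]
          exact D.add_mem (hx2 _ h1) (hy2 w hw)
        · rw [map_mul, LinearEquiv.mul_apply, hy3 d hd, hx3 d hd]
      inv_mem' := by
        rintro x ⟨hx1, hx2, hx3⟩
        have hxx : ∀ v, ρ x⁻¹ (ρ x v) = v := fun v => by
          rw [← LinearEquiv.mul_apply, ← map_mul, inv_mul_cancel, map_one]; rfl
        have key : ∀ v, ρ x v = v → ρ x⁻¹ v = v := by
          intro v hv
          have h1 := hxx v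
          rwa [hv] at h1
        refine ⟨fun w' hw' => key _ (hx1 w' hw'), fun w hw => ?_, fun d hd => key _ (hx3 d hd)⟩
        have h1 := hx2 w hw
        have h2 := key _ (hx3 _ h1)
        rw [map_sub, hxx] at h2
        have h4 : ρ x⁻¹ w - w = -(ρ x w - w) := by rw [← h2]; abel
        rw [h4]
        exact D.neg_mem h1 }
  have hL0 : ∀ l ∈ L, W₀.map (ρ l : V →ₗ[K] V) = W₀ := fun l hl => map_eq_of_le ρ fun w hw => by
    have := W₀.add_mem (hD (hl.2.1 w hw)) hw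
    rwa [sub_add_cancel] at this
  have hL1 : ∀ l ∈ L, W'.map (ρ l : V →ₗ[K] V) = W' := fun l hl => map_eq_of_le ρ fun w hw => by
    have := hl.1 w hw
    rw [this]; exact hw
  refine ⟨L, fun l hl => hL0 l hl, fun l hl => hL1 l hl, fun {_} => ?_⟩
  have hfinW : Finite (W₀ ≃ₗ[K] W₀) :=
    Finite.of_injective (fun e : W₀ ≃ₗ[K] W₀ => (e : W₀ → W₀)) DFunLike.coe_injective
  let _ : Fintype (radU D₀) := Fintype.ofFinite _
  let f : L →* radU D₀ :=
    { toFun := fun l => ⟨res (ρ l) W₀ (hL0 l l.2), fun w => l.2.2.1 w w.2, fun d hd => by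
          apply Subtype.ext
          exact l.2.2.2 d hd⟩
      map_one' := by
        apply Subtype.ext
        ext w
        change ρ ((1 : L) : G) w = w
        rw [OneMemClass.coe_one, map_one]
        rfl
      map_mul' := fun x y => by
        apply Subtype.ext
        ext w
        change ρ ((x * y : L) : G) w = ρ x (ρ y w)
        rw [MulMemClass.coe_mul, map_mul]
        rfl }
  have hf : Function.Surjective f := by
    have h1 := mem_of_transv D₀ (f.range.map (radU D₀).subtype) (by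
      intro c hc f' hf'
      obtain ⟨g, hg1, hg2⟩ := hgen c hc f' (fun w hw => hf' w hw)
      have hgL : g ∈ L := by
        refine ⟨hg1, fun w hw => ?_, fun d hd => ?_⟩
        · rw [hg2 ⟨w, hw⟩, add_sub_cancel_left]
          exact D.smul_mem _ hc
        · rw [hg2 ⟨d, hD hd⟩, hf' _ hd, zero_smul, add_zero]
      refine ⟨_, ⟨f ⟨g, hgL⟩, ⟨⟨g, hgL⟩, rfl⟩, rfl⟩, fun w => ?_⟩
      apply Subtype.ext
      exact hg2 w)
    rintro ⟨u, hu⟩
    obtain ⟨_, ⟨l, rfl⟩, h2⟩ := h1 hu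
    exact ⟨l, Subtype.ext h2⟩
  have e1 : ∀ l : L, flagTerm ρ c l W₀ * conj (flagTerm ρ c l W') =
      (fun u : radU D₀ => cl c (u : W₀ ≃ₗ[K] W₀) * conj (c 1)) (f l) := by
    intro l
    rw [flagTerm_of ρ c (hL0 l l.2), flagTerm_of ρ c (hL1 l l.2)]
    have e2 : res (ρ (l : G)) W' (hL1 l l.2) = 1 := by
      ext w
      exact l.2.1 w w.2
    rw [e2, cl_one hcf b₁]
    rfl
  rw [Finset.sum_congr rfl fun l _ => e1 l,
    sum_comp_hom f hf (fun u : radU D₀ => cl c (u : W₀ ≃ₗ[K] W₀) * conj (c 1)), ← Finset.sum_mul,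
    hcusp.sum_eq hcf b₀ D₀ hD₀0 hD₀1, zero_mul, mul_zero]

/-- the `k`-dimensional subspaces of `Lam` -/
def Subs (Lam : Submodule K V) (k : ℕ) : Set (Submodule K V) := {W | W ≤ Lam ∧ finrank K W = k}

variable {ρ}

theorem Subs_map {Lam : Submodule K V} (hLam : ∀ g : G, Lam.map (ρ g : V →ₗ[K] V) = Lam) {k : ℕ} (g : G)
    (W : Submodule K V) (hW : W ∈ Subs Lam k) : W.map (ρ g : V →ₗ[K] V) ∈ Subs Lam k :=
  ⟨by rw [← hLam g]; exact Submodule.map_mono hW.1, by rw [← hW.2]; exact LinearEquiv.finrank_map_eq (ρ g) W⟩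

/-- transitivity -/
theorem trans_Subs [FiniteDimensional K V] {Lam : Submodule K V}
    (hsurj : ∀ a : Lam ≃ₗ[K] Lam, ∃ g : G, ∀ w : Lam, ρ g w = a w) {k : ℕ} {W W' : Submodule K V}
    (hW : W ∈ Subs Lam k) (hW' : W' ∈ Subs Lam k) : ∃ g : G, W.map (ρ g : V →ₗ[K] V) = W' := by
  have e1 : finrank K (W.comap Lam.subtype) = finrank K (W'.comap Lam.subtype) := by
    rw [LinearEquiv.finrank_eq (Submodule.comapSubtypeEquivOfLe hW.1),
      LinearEquiv.finrank_eq (Submodule.comapSubtypeEquivOfLe hW'.1), hW.2, hW'.2]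
  obtain ⟨a, ha⟩ := CForm.exists_map_eq _ _ e1
  obtain ⟨g, hg⟩ := hsurj a
  refine ⟨g, ?_⟩
  apply Submodule.eq_of_le_of_finrank_eq
  · rintro _ ⟨w, hw, rfl⟩
    change ρ g w ∈ W'
    rw [hg ⟨w, hW.1 hw⟩]
    have : a ⟨w, hW.1 hw⟩ ∈ (W.comap Lam.subtype).map (a : Lam →ₗ[K] _) := ⟨_, hw, rfl⟩
    rw [ha] at this
    exact this
  · rw [hW'.2, ← hW.2]
    exact LinearEquiv.finrank_map_eq (ρ g) W

/-- the vanishing at the pairs of distinct subspaces -/
theorem van_Subs [FiniteDimensional K V] [Finite V] {Lam : Submodule K V}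
    (hsurj : ∀ a : Lam ≃ₗ[K] Lam, ∃ g : G, ∀ w : Lam, ρ g w = a w) {k : ℕ} (hk : 2 ≤ k)
    {c : GL (Fin k) K → ℂ} (hcf : IsClassFunction _ c) (hcusp : IsCusp c) {W₀ W' : Submodule K V}
    (hW₀ : W₀ ∈ Subs Lam k) (hW' : W' ∈ Subs Lam k) (hne : W' ≠ W₀) :
    ∃ L : Subgroup G, L ≤ stabW ρ W₀ ∧ L ≤ stabW ρ W' ∧
      ∀ [Fintype L], ∑ l : L, flagTerm ρ c l W₀ * conj (flagTerm ρ c l W') = 0 := by
  classical
  -- the transvections
  have key : ∀ D : Submodule K V, D ≤ W₀ → W₀ ⊓ W' ≤ D → ∀ d ∈ D, ∀ f : W₀ →ₗ[K] K,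
      (∀ w : W₀, (w : V) ∈ D → f w = 0) →
      ∃ g : G, (∀ w' ∈ W', ρ g w' = w') ∧ ∀ w : W₀, ρ g w = w + f w • d := by
    intro D hD hD' d hd f hf
    obtain ⟨f', hf1, hf2⟩ := exists_fun (W₀ := W₀) (W' := W') f (fun w hw => hf w (hD' ⟨w.2, hw⟩))
    have hdL : d ∈ Lam := hW₀.1 (hD hd)
    have hfd : f' d = 0 := by
      have := hf1 ⟨d, hD hd⟩
      rw [hf ⟨d, hD hd⟩ hd] at this
      exact this
    let a : Lam →ₗ[K] Lam := (f'.comp Lam.subtype).smulRight (⟨d, hdL⟩ : Lam)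
    have ha : ∀ w : Lam, a w = f' w • (⟨d, hdL⟩ : Lam) := fun w => rfl
    have h1 : ∀ w, a w ∈ Submodule.span K {(⟨d, hdL⟩ : Lam)} := fun w => by
      rw [ha]
      exact Submodule.smul_mem _ _ (Submodule.mem_span_singleton_self _)
    have h2 : ∀ x ∈ Submodule.span K {(⟨d, hdL⟩ : Lam)}, a x = 0 := by
      intro x hx
      obtain ⟨t, rfl⟩ := Submodule.mem_span_singleton.1 hx
      rw [ha]
      change f' (t • d) • _ = _
      rw [map_smul, hfd, smul_zero, zero_smul]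
    obtain ⟨g, hg⟩ := hsurj (oneAdd _ a h1 h2)
    have hg' : ∀ w : Lam, ρ g w = w + f' w • d := fun w => by
      rw [hg w, oneAdd_apply, ha]
      rfl
    refine ⟨g, fun w' hw' => ?_, fun w => ?_⟩
    · rw [hg' ⟨w', hW'.1 hw'⟩]
      change w' + f' w' • d = w'
      rw [hf2 w' hw', zero_smul, add_zero]
    · rw [hg' ⟨w, hW₀.1 w.2⟩]
      change (w : V) + f' w • d = _
      rw [hf1]
  by_cases h0 : W₀ ⊓ W' = ⊥
  · obtain ⟨x, hx, hx0⟩ : ∃ x ∈ W₀, x ≠ 0 := by
      by_contra h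
      push Not at h
      have : W₀ = ⊥ := (Submodule.eq_bot_iff _).2 h
      have h2 := hW₀.2
      rw [this, finrank_bot] at h2
      omega
    have hD : (K ∙ x) ≤ W₀ := (Submodule.span_singleton_le_iff_mem _ _).2 hx
    refine van ρ hcf hcusp hW₀.2 hW'.2 (K ∙ x) hD
      (fun h => hx0 (Submodule.span_singleton_eq_bot.1 h)) (fun h => ?_)
      (key _ hD (by rw [h0]; exact bot_le))
    have h2 := hW₀.2
    rw [← h, finrank_span_singleton hx0] at h2
    omega
  · refine van ρ hcf hcusp hW₀.2 hW'.2 (W₀ ⊓ W') inf_le_left h0 (fun h => hne ?_) (key _ inf_le_left le_rfl)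
    symm
    apply Submodule.eq_of_le_of_finrank_eq
    · rw [← h]; exact inf_le_right
    · rw [hW₀.2, hW'.2]

/-- the local term is irreducible on the stabiliser -/
theorem isIrr_stabW [FiniteDimensional K V] [Finite V] [Finite G] {Lam : Submodule K V}
    (hsurj : ∀ a : Lam ≃ₗ[K] Lam, ∃ g : G, ∀ w : Lam, ρ g w = a w) {k : ℕ}
    {c : GL (Fin k) K → ℂ} (hc : IsIrrCharacter _ c) {W₀ : Submodule K V} (hW₀ : W₀ ∈ Subs Lam k) :
    IsIrrCharacter (stabW ρ W₀) (fun g => flagTerm ρ c g W₀) := by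
  classical
  have hcf := Core.isIrr_isClassFunction hc
  have b₀ : Basis (Fin k) K W₀ := finBasisOfFinrankEq K W₀ hW₀.2
  let f : stabW ρ W₀ →* GL (Fin k) K := (glE b₀).toMonoidHom.comp (resHom ρ W₀)
  have hf : Function.Surjective f := by
    intro A
    obtain ⟨a, rfl⟩ := (glE b₀).surjective A
    obtain ⟨a', ha'⟩ := exists_extE (W₀.comap Lam.subtype)
      (((Submodule.comapSubtypeEquivOfLe hW₀.1).trans a).trans (Submodule.comapSubtypeEquivOfLe hW₀.1).symm)
    obtain ⟨g, hg⟩ := hsurj a'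
    have hg0 : ∀ w : W₀, ρ g w = a w := by
      intro w
      rw [hg ⟨w, hW₀.1 w.2⟩]
      have h1 := ha' ⟨⟨w, hW₀.1 w.2⟩, w.2⟩
      exact congrArg (fun x : Lam => (x : V)) h1
    have hg1 : W₀.map (ρ g : V →ₗ[K] V) = W₀ := map_eq_of_le ρ fun w hw => by
      rw [hg0 ⟨w, hw⟩]; exact (a ⟨w, hw⟩).2
    refine ⟨⟨g, hg1⟩, ?_⟩
    change glE b₀ (res (ρ g) W₀ hg1) = glE b₀ a
    congr 1
    ext w
    exact hg0 w
  have e1 : (fun g : stabW ρ W₀ => flagTerm ρ c g W₀) = c ∘ f := by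
    ext g
    rw [flagTerm_of ρ c g.2, cl_eq hcf b₀]
    rfl
  rw [e1]
  exact Core.isIrr_comp f hf hc

/-- **irreducibility of the sum over the `k`-subspaces of `Lam`** -/
theorem isIrr_sub [Fintype G] [FiniteDimensional K V] [Finite V] {Lam : Submodule K V}
    (hLam : ∀ g : G, Lam.map (ρ g : V →ₗ[K] V) = Lam)
    (hsurj : ∀ a : Lam ≃ₗ[K] Lam, ∃ g : G, ∀ w : Lam, ρ g w = a w) {k : ℕ} (hk : 2 ≤ k)
    {c : GL (Fin k) K → ℂ} (hc : IsIrrCharacter _ c) (hcusp : IsCusp c) {W₀ : Submodule K V}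
    (hW₀ : W₀ ∈ Subs Lam k) [Fintype (Subs Lam k)] :
    IsIrrCharacter G (flagChar ρ (Subs Lam k) c) ∧
      flagChar ρ (Subs Lam k) c 1 * Nat.card (stabW ρ W₀) = Nat.card G * c 1 ∧
      ∀ [Fintype (stabW ρ W₀)], classInner (fun x : stabW ρ W₀ => flagChar ρ (Subs Lam k) c (x : G))
        (fun x : stabW ρ W₀ => flagTerm ρ c (x : G) W₀) = 1 := by
  classical
  have hcf := Core.isIrr_isClassFunction hc
  have hΩ : ∀ g : G, ∀ W ∈ Subs Lam k, W.map (ρ g : V →ₗ[K] V) ∈ Subs Lam k := Subs_map hLam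
  let _ := subAct ρ (Subs Lam k) hΩ
  have hpre : IsPretransitive G (Subs Lam k) := by
    refine ⟨fun W W' => ?_⟩
    obtain ⟨g, hg⟩ := trans_Subs hsurj W.2 W'.2
    exact ⟨g, Subtype.ext hg⟩
  have hst : ∀ g : G, g ∈ stabilizer G (⟨W₀, hW₀⟩ : Subs Lam k) ↔ g ∈ stabW ρ W₀ := fun g =>
    ⟨fun h => congrArg Subtype.val (mem_stabilizer_iff.1 h), fun h => mem_stabilizer_iff.2 (Subtype.ext h)⟩
  have hst' : stabilizer G (⟨W₀, hW₀⟩ : Subs Lam k) = stabW ρ W₀ := Subgroup.ext hst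
  have hconj : ∀ (x g : G) (W : Subs Lam k), flagTerm ρ c (x * g * x⁻¹) (x • W).1 = flagTerm ρ c g W.1 :=
    fun x g W => flagTerm_conj ρ hcf x g W.1
  have hμ := isIrr_stabW (ρ := ρ) hsurj hc hW₀
  have hμ' : IsIrrCharacter (stabilizer G (⟨W₀, hW₀⟩ : Subs Lam k))
      (stabFun (fun g (W : Subs Lam k) => flagTerm ρ c g W.1) ⟨W₀, hW₀⟩) := by
    let f : stabilizer G (⟨W₀, hW₀⟩ : Subs Lam k) →* stabW ρ W₀ :=
      { toFun := fun g => ⟨g, (hst _).1 g.2⟩
        map_one' := rfl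
        map_mul' := fun _ _ => rfl }
    have hf : Function.Surjective f := fun g => ⟨⟨g, (hst _).2 g.2⟩, rfl⟩
    exact Core.isIrr_comp f hf hμ
  have hirr : IsIrrCharacter G (flagChar ρ (Subs Lam k) c) := by
    rw [flagChar_eq_orbSum ρ (Subs Lam k) hΩ]
    refine isIrr_orbSum (fun g (W : Subs Lam k) => flagTerm ρ c g W.1) hconj ⟨W₀, hW₀⟩ hμ' ?_
    rintro ⟨W', hW'⟩ hne
    have hne' : W' ≠ W₀ := fun e => hne (Subtype.ext e)
    obtain ⟨L, hL1, hL2, hL3⟩ := van_Subs (ρ := ρ) hsurj hk hcf hcusp hW₀ hW' hne'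
    exact ⟨L, fun l hl => (hst l).2 (hL1 hl), fun l hl => mem_stabilizer_iff.2 (Subtype.ext (hL2 hl)),
      fun {_} => hL3⟩
  have hcard : Nat.card (Subs Lam k) * Nat.card (stabW ρ W₀) = Nat.card G := by
    have h1 : (stabW ρ W₀).index = Nat.card (Subs Lam k) := by
      rw [← hst', MulAction.index_stabilizer_of_transitive]
    rw [← h1, mul_comm, Subgroup.card_mul_index]
  refine ⟨hirr, ?_, ?_⟩
  · rw [flagChar_one ρ (Subs Lam k) hcf (fun W hW => hW.2), ← hcard, Nat.cast_mul]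
    ring
  · intro _
    let _ : Fintype (stabilizer G (⟨W₀, hW₀⟩ : Subs Lam k)) := Fintype.ofFinite _
    have e1 : indFun (stabilizer G (⟨W₀, hW₀⟩ : Subs Lam k))
        (stabFun (fun g (W : Subs Lam k) => flagTerm ρ c g W.1) ⟨W₀, hW₀⟩) = flagChar ρ (Subs Lam k) c :=
      (orbSum_eq_indFun (fun g (W : Subs Lam k) => flagTerm ρ c g W.1) hconj ⟨W₀, hW₀⟩).symm.trans
        (flagChar_eq_orbSum ρ (Subs Lam k) hΩ c).symm
    have e2 := classInner_indFun (stabilizer G (⟨W₀, hW₀⟩ : Subs Lam k))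
      (stabFun (fun g (W : Subs Lam k) => flagTerm ρ c g W.1) ⟨W₀, hW₀⟩) (flagChar ρ (Subs Lam k) c)
      (Core.isIrr_isClassFunction hirr)
    rw [e1, Core.classInner_irr_self hirr] at e2
    let e : stabW ρ W₀ ≃* stabilizer G (⟨W₀, hW₀⟩ : Subs Lam k) :=
      { toFun := fun g => ⟨g, (hst _).2 g.2⟩
        invFun := fun g => ⟨g, (hst _).1 g.2⟩
        left_inv := fun _ => rfl
        right_inv := fun _ => rfl
        map_mul' := fun _ _ => rfl }
    have e3 := inner_equiv e (stabFun (fun g (W : Subs Lam k) => flagTerm ρ c g W.1) ⟨W₀, hW₀⟩)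
      (fun h : stabilizer G (⟨W₀, hW₀⟩ : Subs Lam k) => flagChar ρ (Subs Lam k) c (h : G))
    rw [← e2] at e3
    have e4 := congrArg (starRingEnd ℂ) e3
    rw [Core.classInner_conj_symm, map_one] at e4
    exact e4

end Irr

section Form

variable {K : Type u} [Field K] {V : Type v} [AddCommGroup V] [Module K V] (F : CForm K V)

/-- the action of the stabiliser of `Lam` -/
def rhoT (Lam : Submodule K V) : stabW F.iso.subtype Lam →* (V ≃ₗ[K] V) :=
  F.iso.subtype.comp (stabW F.iso.subtype Lam).subtype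

theorem flagTerm_rhoT {Lam : Submodule K V} {k : ℕ} (c : GL (Fin k) K → ℂ) (t : stabW F.iso.subtype Lam)
    (W : Submodule K V) : flagTerm (rhoT F Lam) c t W = flagTerm F.iso.subtype c (t : F.iso) W := rfl

/-- `P₁ ≃ stab_T (W₀)` -/
def eP (W₀ Lam : Submodule K V) : (stabW F.iso.subtype W₀ ⊓ stabW F.iso.subtype Lam : Subgroup F.iso) ≃*
    stabW (rhoT F Lam) W₀ where
  toFun x := ⟨⟨x, x.2.2⟩, x.2.1⟩
  invFun x := ⟨(x : stabW F.iso.subtype Lam), x.2, (x : stabW F.iso.subtype Lam).2⟩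
  left_inv _ := rfl
  right_inv _ := rfl
  map_mul' _ _ := rfl

variable {F}

theorem surj_T [FiniteDimensional K V] {Lam : Submodule K V} (hL : F.TS Lam) (a : Lam ≃ₗ[K] Lam) :
    ∃ g : stabW F.iso.subtype Lam, ∀ w : Lam, rhoT F Lam g w = a w := by
  obtain ⟨g, hg⟩ := F.exists_levi' hL a
  refine ⟨⟨g, map_eq_of_le F.iso.subtype fun w hw => ?_⟩, hg⟩
  change (g : V ≃ₗ[K] V) w ∈ Lam
  rw [hg ⟨w, hw⟩]
  exact (a ⟨w, hw⟩).2

/-- **(K1)** `κ`, with its values (fields K, V finite) -/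
theorem exists_kappa' [Finite K] [FiniteDimensional K V] [Finite V] {k : ℕ} (hk : 2 ≤ k)
    {c : GL (Fin k) K → ℂ} (hc : IsIrrCharacter _ c) (hcusp : IsCusp c) {Lam W₀ : Submodule K V}
    (hL : F.TS Lam) (hW : W₀ ≤ Lam) (hWk : finrank K W₀ = k) :
    ∃ κ : IrrCharacter (stabW F.iso.subtype Lam),
      (κ : stabW F.iso.subtype Lam → ℂ) 1 *
          Nat.card (stabW F.iso.subtype W₀ ⊓ stabW F.iso.subtype Lam : Subgroup F.iso) =
        Nat.card (stabW F.iso.subtype Lam) * c 1 ∧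
      (∀ [Fintype (stabW F.iso.subtype W₀ ⊓ stabW F.iso.subtype Lam : Subgroup F.iso)],
        classInner (fun x : (stabW F.iso.subtype W₀ ⊓ stabW F.iso.subtype Lam : Subgroup F.iso) =>
            (κ : stabW F.iso.subtype Lam → ℂ) ⟨x, x.2.2⟩)
          (fun x : (stabW F.iso.subtype W₀ ⊓ stabW F.iso.subtype Lam : Subgroup F.iso) =>
            flagTerm F.iso.subtype c (x : F.iso) W₀) = 1) ∧
      ∀ [Fintype (Subs Lam k)] (t : stabW F.iso.subtype Lam),
        (κ : stabW F.iso.subtype Lam → ℂ) t = ∑ W : Subs Lam k, flagTerm F.iso.subtype c (t : F.iso) W.1 := by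
  classical
  have hfinG : Finite (V ≃ₗ[K] V) :=
    Finite.of_injective (fun e : V ≃ₗ[K] V => (e : V → V)) DFunLike.coe_injective
  have hG : Finite F.iso := inferInstance
  let _ : Fintype (stabW F.iso.subtype Lam) := Fintype.ofFinite _
  let i0 : Fintype (Subs Lam k) := Fintype.ofFinite _
  obtain ⟨h1, h2, h3⟩ := isIrr_sub (ρ := rhoT F Lam) (Lam := Lam) (fun g => g.2) (surj_T hL) hk hc hcusp
    (W₀ := W₀) ⟨hW, hWk⟩
  refine ⟨⟨_, h1⟩, ?_, fun {_} => ?_, fun {i1} t => ?_⟩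
  · rw [Nat.card_congr (eP F W₀ Lam).toEquiv]
    exact h2
  · let _ : Fintype (stabW (rhoT F Lam) W₀) := Fintype.ofFinite _
    have h4 := inner_equiv (eP F W₀ Lam)
      (fun x : stabW (rhoT F Lam) W₀ => flagChar (rhoT F Lam) (Subs Lam k) c (x : stabW F.iso.subtype Lam))
      (fun x : stabW (rhoT F Lam) W₀ => flagTerm (rhoT F Lam) c (x : stabW F.iso.subtype Lam) W₀)
    rw [h3] at h4
    exact h4
  · have : i1 = i0 := Subsingleton.elim _ _
    subst this
    rfl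

/-- **(K1)** the statement of the box -/
theorem exists_kappa [Finite K] [FiniteDimensional K V] [Finite V] {k : ℕ} (hk : 2 ≤ k)
    {c : GL (Fin k) K → ℂ} (hc : IsIrrCharacter _ c) (hcusp : IsCusp c) {Lam W₀ : Submodule K V}
    (hL : F.TS Lam) (hW : W₀ ≤ Lam) (hWk : finrank K W₀ = k) :
    ∃ κ : IrrCharacter (stabW F.iso.subtype Lam),
      (κ : stabW F.iso.subtype Lam → ℂ) 1 *
          Nat.card (stabW F.iso.subtype W₀ ⊓ stabW F.iso.subtype Lam : Subgroup F.iso) =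
        Nat.card (stabW F.iso.subtype Lam) * c 1 ∧
      ∀ [Fintype (stabW F.iso.subtype W₀ ⊓ stabW F.iso.subtype Lam : Subgroup F.iso)],
        classInner (fun x : (stabW F.iso.subtype W₀ ⊓ stabW F.iso.subtype Lam : Subgroup F.iso) =>
            (κ : stabW F.iso.subtype Lam → ℂ) ⟨x, x.2.2⟩)
          (fun x : (stabW F.iso.subtype W₀ ⊓ stabW F.iso.subtype Lam : Subgroup F.iso) =>
            flagTerm F.iso.subtype c (x : F.iso) W₀) ≠ 0 := by
  obtain ⟨κ, h1, h2, -⟩ := exists_kappa' hk hc hcusp hL hW hWk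
  exact ⟨κ, h1, fun {_} => by rw [h2]; exact one_ne_zero⟩

/-- **(K2)** `flagTerm c . W₀` is irreducible on `stabW W₀ ⊓ stabW Lam` -/
theorem isIrr_mu [Finite K] [FiniteDimensional K V] [Finite V] {k : ℕ}
    {c : GL (Fin k) K → ℂ} (hc : IsIrrCharacter _ c) {Lam W₀ : Submodule K V}
    (hL : F.TS Lam) (hW : W₀ ≤ Lam) (hWk : finrank K W₀ = k) :
    IsIrrCharacter (stabW F.iso.subtype W₀ ⊓ stabW F.iso.subtype Lam : Subgroup F.iso)
      (fun x => flagTerm F.iso.subtype c (x : F.iso) W₀) := by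
  classical
  have hfinG : Finite (V ≃ₗ[K] V) :=
    Finite.of_injective (fun e : V ≃ₗ[K] V => (e : V → V)) DFunLike.coe_injective
  have hG : Finite F.iso := inferInstance
  have h1 := isIrr_stabW (ρ := rhoT F Lam) (Lam := Lam) (surj_T hL) hc (W₀ := W₀) ⟨hW, hWk⟩
  exact Core.isIrr_comp (eP F W₀ Lam).toMonoidHom (eP F W₀ Lam).surjective h1

end Form

end Cfsg.Agent.H618.HT
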